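import Cfsg.Agent.LyThree33.Main
import Cfsg.Agent.LyIndex33.Glue
import Cfsg.Agent.Ly95.Glue
import Cfsg.Agent.Ly95.Normalizer
import Cfsg.Agent.Ly95.Primes
import Cfsg.Agent.Ly95.Two

/-!
The index of the subgroup generated by a, b, c, d and the simplicity of the presented Lyons group.
-/

set_option autoImplicit false

namespace CfsgLib.LyThree33

open CfsgLib.DCert22

theorem normalizer_abcd (h : Ly95.abcd.index = 8835156) :
    Subgroup.normalizer (Ly95.abcd : Set Cfsg.Spor.Ly) ≤ Ly95.abcd := by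
  haveI : Finite Ly33.Hg := Nat.finite_of_card_ne_zero (by rw [Ly33.card_Hg]; norm_num)
  refine Ly95.normalizer_le Ly33.lySetup.model Ly95.abcd Ly33.cert Ly33.phiLy_range.le Ly33.live
    Ly33.Setup.kLow (Ly33.lySetup.covered Ly33.lySetup_gen) Ly33.lySetup.hlow ?_ ?_
  · rw [h]
    exact Ly33.Setup.sum_le
  · intro a ha ha0
    simp only [Ly33.live, List.mem_cons, List.not_mem_nil, or_false] at ha
    rw [Ly33.card_Hg]
    rcases ha with rfl | rfl | rfl | rfl | rfl
    · exact absurd rfl ha0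
    all_goals simp [Ly33.Setup.kLow]

/-- the index and the simplicity -/
theorem index_isLy : Ly95.abcd.index = 8835156 ∧ Cfsg.IsLy Cfsg.Spor.Ly :=
  Ly95.index_and_isLy Ly95.card_abcd Ly95.isSimple_abcd Ly33.ly_index_le.1 Ly33.ly_index_le.2
    normalizer_abcd Ly95.dvdTwo three_pow_seven_dvd Ly95.dvd11 Ly95.dvd37 Ly95.dvd67

end CfsgLib.LyThree33
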