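import Cfsg.Agent.LyThree33.Closed

/-! Kernel checks of the orbit, part 0. -/

set_option autoImplicit false
set_option maxRecDepth 100000

namespace CfsgLib.LyThree33

open CfsgLib.LyRep96

theorem chunk0 : (List.range' 0 243).all okAt = true := by decide +kernel

theorem chunk1 : (List.range' 243 243).all okAt = true := by decide +kernel

theorem chunk2 : (List.range' 486 243).all okAt = true := by decide +kernel

theorem vecs_zero : vecs.get 0 = 2 ^ (22 * 0) := by decide +kernel

theorem sigma_ok : (Nat.beq sigma.length 2187 && sigma.all (fun k => Nat.blt k 2187) &&
    incr (sigma.map vecs.get)) = true := by decide +kernel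

end CfsgLib.LyThree33
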