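import Cfsg.Agent.LyThree33.Closed

/-! Kernel checks of the orbit, part 1. -/

set_option autoImplicit false
set_option maxRecDepth 100000

namespace CfsgLib.LyThree33

open CfsgLib.LyRep96

theorem chunk3 : (List.range' 729 243).all okAt = true := by decide +kernel

theorem chunk4 : (List.range' 972 243).all okAt = true := by decide +kernel

theorem chunk5 : (List.range' 1215 243).all okAt = true := by decide +kernel

end CfsgLib.LyThree33
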