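import Cfsg.Agent.LyThree33.Closed

/-! Kernel checks of the orbit, part 2. -/

set_option autoImplicit false
set_option maxRecDepth 100000

namespace CfsgLib.LyThree33

open CfsgLib.LyRep96

theorem chunk6 : (List.range' 1458 243).all okAt = true := by decide +kernel

theorem chunk7 : (List.range' 1701 243).all okAt = true := by decide +kernel

theorem chunk8 : (List.range' 1944 243).all okAt = true := by decide +kernel

end CfsgLib.LyThree33
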