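import Cfsg.Agent.LyRep96.Rep

/-! The length of an orbit of vectors under elements of the presented Lyons group divides its
order. -/

set_option autoImplicit false

namespace CfsgLib.LyThree33

open Matrix CfsgLib.LyRep96

local instance : Fact (Nat.Prime 5) := ⟨by norm_num⟩

/-- some element of the group has this matrix -/
def IsImg (R : List ℕ) : Prop :=
  ∃ x : Cfsg.Spor.Ly, matOf R = (rep x : GL (Fin 111) (ZMod 5)).1

theorem runM_vec (A : ℕ → List ℕ) (hA : ∀ x, shapeOK (A x) = true) (w : List ℕ)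
    (v : Fin 111 → ZMod 5) :
    runM A w (packV v) = packV (v ᵥ* (w.map fun x => matOf (A x)).prod) := by
  rw [packV_eq, packV_eq, runM_packM A hA]
  refine congrArg packM (Matrix.ext fun i j => ?_)
  rw [Matrix.mul_apply]
  by_cases h : (i : ℕ) = 0
  · simp only [rowMat, Matrix.of_apply, h, if_true, Matrix.vecMul, dotProduct]
  · simp only [rowMat, Matrix.of_apply, h, if_false, zero_mul, Finset.sum_const_zero]

theorem prod_img (A : ℕ → List ℕ) : ∀ w : List ℕ, (∀ y ∈ w, IsImg (A y)) →
    ∃ x : Cfsg.Spor.Ly, (w.map fun y => matOf (A y)).prod = (rep x : GL (Fin 111) (ZMod 5)).1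
  | [], _ => ⟨1, by simp⟩
  | y :: w, h => by
    obtain ⟨a, ha⟩ := h y List.mem_cons_self
    obtain ⟨b, hb⟩ := prod_img A w fun z hz => h z (List.mem_cons_of_mem _ hz)
    exact ⟨a * b, by rw [List.map_cons, List.prod_cons, ha, hb, map_mul, Units.val_mul]⟩

theorem isImg_word {A : ℕ → List ℕ} (hA : ∀ x, shapeOK (A x) = true) {x : ℕ} {w : List ℕ}
    (h : Nat.beq (runM A [x] oneS) (runM A w oneS) = true) (hw : ∀ y ∈ w, IsImg (A y)) :
    IsImg (A x) := by
  rw [Nat.beq_eq, ← packM_one, runM_packM A hA, runM_packM A hA] at h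
  obtain ⟨g, hg⟩ := prod_img A w hw
  exact ⟨g, by simpa [hg] using packM_inj h⟩

theorem isImg_inv {A : ℕ → List ℕ} (hA : ∀ x, shapeOK (A x) = true) {x y : ℕ}
    (h : Nat.beq (runM A [x, y] oneS) oneS = true) (hy : IsImg (A y)) : IsImg (A x) := by
  rw [Nat.beq_eq, ← packM_one, runM_packM A hA] at h
  obtain ⟨g, hg⟩ := hy
  have e := packM_inj h
  simp only [one_mul, List.map_cons, List.map_nil, List.prod_cons, List.prod_nil, mul_one, hg] at e
  refine ⟨g⁻¹, ?_⟩
  rw [map_inv]
  exact Units.eq_inv_of_mul_eq_one_right e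

/-- the permutation of vectors given by an invertible matrix -/
noncomputable def actInv : GL (Fin 111) (ZMod 5) →* Equiv.Perm (Fin 111 → ZMod 5) where
  toFun u :=
    { toFun := fun v => v ᵥ* (u⁻¹ : GL (Fin 111) (ZMod 5)).1
      invFun := fun v => v ᵥ* u.1
      left_inv := fun v => by simp [Matrix.vecMul_vecMul]
      right_inv := fun v => by simp [Matrix.vecMul_vecMul] }
  map_one' := Equiv.ext fun v => by simp
  map_mul' u w := Equiv.ext fun v => by simp [Matrix.vecMul_vecMul]

/-- an orbit certificate -/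
theorem dvd_card_of_orbit (A : ℕ → List ℕ) (hA : ∀ x, shapeOK (A x) = true) (gens : List ℕ)
    (himg : ∀ g ∈ gens, IsImg (A g)) (n : ℕ) (T : ℕ → ℕ) (v0 : Fin 111 → ZMod 5)
    (h0 : T 0 = packV v0) (nx : ℕ → ℕ → ℕ)
    (closed : ∀ i < n, ∀ j < gens.length, nx i j < n ∧ runM A [gens.getD j 0] (T i) = T (nx i j))
    (reach : ∀ i < n, i ≠ 0 → ∃ p j, p < i ∧ j < gens.length ∧ nx p j = i)
    (σ : List ℕ) (hlen : σ.length = n) (hlt : ∀ k ∈ σ, k < n) (hnd : (σ.map T).Nodup)
    (hn : 0 < n) : n ∣ Nat.card Cfsg.Spor.Ly := by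
  classical
  let act : Cfsg.Spor.Ly →* Equiv.Perm (Fin 111 → ZMod 5) := actInv.comp rep
  have hjmem : ∀ j, j < gens.length → gens.getD j 0 ∈ gens := fun j hj => by
    rw [List.getD_eq_getElem _ _ hj]; exact List.getElem_mem hj
  have hex : ∀ j, j < gens.length → ∃ e ∈ act.range, ∀ v, packV (e v) = runM A [gens.getD j 0] (packV v) := by
    intro j hj
    obtain ⟨x, hx⟩ := himg _ (hjmem j hj)
    refine ⟨act x⁻¹, ⟨_, rfl⟩, fun v => ?_⟩
    rw [runM_vec A hA, List.map_singleton, List.prod_singleton, hx]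
    simp [act, actInv]
  choose e he_mem he using hex
  let K := Subgroup.closure {f : Equiv.Perm (Fin 111 → ZMod 5) | ∃ j, ∃ hj : j < gens.length, e j hj = f}
  have hK : K ≤ act.range := by
    rw [Subgroup.closure_le]
    rintro f ⟨j, hj, rfl⟩
    exact he_mem j hj
  let S : Set (Fin 111 → ZMod 5) := {v | ∃ i < n, packV v = T i}
  have hstep : ∀ f ∈ K, ∀ v, v ∈ S ↔ f v ∈ S := by
    intro f hf
    induction hf using Subgroup.closure_induction with
    | mem f hf =>
      obtain ⟨j, hj, rfl⟩ := hf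
      have hto : Set.MapsTo (e j hj) S S := by
        rintro v ⟨i, hi, hv⟩
        obtain ⟨h1, h2⟩ := closed i hi j hj
        exact ⟨_, h1, by rw [he j hj, hv, h2]⟩
      have hsurj : Set.SurjOn (e j hj) S S :=
        ((Set.toFinite S).injOn_iff_bijOn_of_mapsTo hto).mp (e j hj).injective.injOn |>.surjOn
      intro v
      refine ⟨fun h => hto h, fun h => ?_⟩
      obtain ⟨w, hw, he'⟩ := hsurj h
      exact (e j hj).injective he' ▸ hw
    | one => intro v; rfl
    | mul f g _ _ hf hg => intro v; exact (hg v).trans (hf _)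
    | inv f _ hf => intro v; rw [hf (f⁻¹ v), Equiv.Perm.inv_def, Equiv.apply_symm_apply]
  have hreach : ∀ i < n, ∃ v ∈ MulAction.orbit K v0, packV v = T i := by
    intro i
    induction i using Nat.strong_induction_on with
    | _ i ih =>
      intro hi
      by_cases hz : i = 0
      · subst hz
        exact ⟨v0, MulAction.mem_orbit_self v0, h0.symm⟩
      obtain ⟨p, j, hp, hj, hpj⟩ := reach i hi hz
      obtain ⟨v, ⟨k, hk⟩, hv⟩ := ih p hp (by omega)
      have hc := (closed p (by omega) j hj).2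
      refine ⟨e j hj v, ⟨⟨e j hj, Subgroup.subset_closure ⟨j, hj, rfl⟩⟩ * k, ?_⟩, ?_⟩
      · show (⟨e j hj, _⟩ * k : K) • v0 = _
        rw [mul_smul]
        simp only at hk
        rw [hk]
        rfl
      · rw [he j hj, hv, hc, hpj]
  have himage : packV '' MulAction.orbit K v0 = T '' {i | i < n} := by
    ext x
    constructor
    · rintro ⟨v, ⟨⟨f, hf⟩, rfl⟩, rfl⟩
      obtain ⟨i, hi, h⟩ := (hstep f hf v0).mp ⟨0, hn, h0.symm⟩
      exact ⟨i, hi, h.symm⟩
    · rintro ⟨i, hi, rfl⟩
      obtain ⟨v, hv, h⟩ := hreach i hi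
      exact ⟨v, hv, h⟩
  have hcard : (MulAction.orbit K v0).ncard = n := by
    rw [← Set.ncard_image_of_injective _ (fun _ _ => packV_inj), himage]
    have hT : Set.InjOn T {i | i < n} := by
      have hnd' : σ.Nodup := hnd.of_map T
      have hall : ∀ i < n, i ∈ σ := by
        have hsub : σ.toFinset ⊆ Finset.range n := fun k hk =>
          Finset.mem_range.mpr (hlt k (List.mem_toFinset.mp hk))
        have heq := Finset.eq_of_subset_of_card_le hsub
          (by rw [Finset.card_range, List.toFinset_card_of_nodup hnd', hlen])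
        exact fun i hi => List.mem_toFinset.mp (heq ▸ Finset.mem_range.mpr hi)
      exact fun i hi j hj h => List.inj_on_of_nodup_map hnd (hall i hi) (hall j hj) h
    rw [hT.ncard_image, show {i : ℕ | i < n} = ↑(Finset.range n) by ext; simp, Set.ncard_coe_finset,
      Finset.card_range]
  have hdvd : n ∣ Nat.card K := by
    rw [← hcard, ← MulAction.index_stabilizer]
    exact Subgroup.index_dvd_card _
  exact hdvd.trans ((Subgroup.card_dvd_of_le hK).trans
    (Subgroup.card_range_dvd act))

end CfsgLib.LyThree33
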