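import Cfsg.Agent.LyExist36.Table
import Cfsg.Agent.LyThree33.Orbit
import Cfsg.Agent.LyThree33.Mat25
import Cfsg.Agent.LyThree33.Mat26
import Cfsg.Agent.LyThree33.Mat27
import Cfsg.Agent.LyThree33.Mat28
import Cfsg.Agent.LyThree33.Mat29
import Cfsg.Agent.LyThree33.Mat30
import Cfsg.Agent.LyThree33.Mat31
import Cfsg.Agent.LyThree33.Mat32
import Cfsg.Agent.LyThree33.Mat33

/-! The table of packed matrices with the new elements. -/

set_option autoImplicit false
set_option maxRecDepth 100000

namespace CfsgLib.LyThree33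

open CfsgLib.LyRep96

/-- the packed matrix of an index -/
def tab : ℕ → List ℕ
  | 25 => mat25
  | 26 => mat26
  | 27 => mat27
  | 28 => mat28
  | 29 => mat29
  | 30 => mat30
  | 31 => mat31
  | 32 => mat32
  | 33 => mat33
  | x => LyExist36.tab x

theorem shapes_new : ([25, 26, 27, 28, 29, 30, 31, 32, 33] : List ℕ).all (fun x => shapeOK (tab x)) = true := by
  decide +kernel

theorem tab_shape (x : ℕ) : shapeOK (tab x) = true := by
  by_cases h : x ∈ ([25, 26, 27, 28, 29, 30, 31, 32, 33] : List ℕ)
  · exact List.all_eq_true.mp shapes_new x h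
  · simp only [List.mem_cons, List.not_mem_nil, or_false, not_or] at h
    obtain ⟨h0, h1, h2, h3, h4, h5, h6, h7, h8⟩ := h
    rw [show tab x = LyExist36.tab x by simp only [tab]]
    exact LyExist36.tab_shape x

end CfsgLib.LyThree33
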