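import Cfsg.Agent.LyThree33.Vec0
import Cfsg.Agent.LyThree33.Vec1
import Cfsg.Agent.LyThree33.Vec2
import Cfsg.Agent.LyThree33.Vec3
import Cfsg.Agent.LyThree33.Vec4
import Cfsg.Agent.LyThree33.Vec5
import Cfsg.Agent.LyThree33.Vec6
import Cfsg.Agent.LyThree33.Vec7
import Cfsg.Agent.LyThree33.Vec8
import Cfsg.Agent.LyThree33.Links
import Cfsg.Agent.LyThree33.Table

/-! The orbit and its closure test. -/

set_option autoImplicit false
set_option maxRecDepth 100000

namespace CfsgLib.LyThree33

open CfsgLib.LyRep96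

/-- the vectors -/
def vecs : Tree := (.node 1053 (.node 486 (.node 243 (.node 81 vec0_0 (.node 81 vec0_1 vec0_2)) (.node 81 vec1_0 (.node 81 vec1_1 vec1_2))) (.node 243 (.node 81 vec2_0 (.node 81 vec2_1 vec2_2)) (.node 162 (.node 81 vec3_0 vec3_1) (.node 81 vec3_2 vec4_0)))) (.node 567 (.node 243 (.node 81 vec4_1 (.node 81 vec4_2 vec5_0)) (.node 162 (.node 81 vec5_1 vec5_2) (.node 81 vec6_0 vec6_1))) (.node 243 (.node 81 vec6_2 (.node 81 vec7_0 vec7_1)) (.node 162 (.node 81 vec7_2 vec8_0) (.node 81 vec8_1 vec8_2)))))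

/-- packed images -/
def nxs : Tree := (.node 972 (.node 486 (.node 243 nx0 nx1) (.node 243 nx2 nx3)) (.node 486 (.node 243 nx4 nx5) (.node 243 nx6 (.node 243 nx7 nx8))))

/-- parents -/
def pars : Tree := (.node 972 (.node 486 (.node 243 par0 par1) (.node 243 par2 par3)) (.node 486 (.node 243 par4 par5) (.node 243 par6 (.node 243 par7 par8))))

/-- the increasing order -/
def sigma : List ℕ :=
  sorted0 ++ sorted1 ++ sorted2 ++ sorted3 ++ sorted4 ++ sorted5 ++ sorted6 ++ sorted7 ++ sorted8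

/-- the image of a vector -/
def nx (i j : ℕ) : ℕ := nxs.get i / 4096 ^ j % 4096

/-- the generators -/
def gens : List ℕ := [31, 32, 33]

/-- closure and parent of one vector -/
def okAt (i : ℕ) : Bool :=
  ((List.range 3).all fun j => Nat.blt (nx i j) 2187 &&
    Nat.beq (runM tab [gens.getD j 0] (vecs.get i)) (vecs.get (nx i j))) &&
  (Nat.beq i 0 || (Nat.blt (pars.get i / 4) i && Nat.blt (pars.get i % 4) 3 &&
    Nat.beq (nx (pars.get i / 4) (pars.get i % 4)) i))

/-- the list increases -/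
def incr : List ℕ → Bool
  | x :: y :: l => Nat.blt x y && incr (y :: l)
  | _ => true

end CfsgLib.LyThree33
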