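import Cfsg.Agent.LyThree33.Table

/-! Kernel checks of the defining words of the new elements. -/

set_option autoImplicit false
set_option maxRecDepth 100000
set_option Elab.async false

namespace CfsgLib.LyThree33

open CfsgLib.LyRep96

theorem def25 : Nat.beq (runM tab [25] oneS) (runM tab [0, 0, 0, 0, 1, 4, 0, 0, 0, 0, 5, 0] oneS) = true := by
  decide +kernel

theorem def26 : Nat.beq (runM tab [26] oneS) (runM tab [1, 4, 0, 0, 0, 0, 5, 0, 17, 19, 18, 20, 17, 19, 21, 23, 22, 24, 21, 23] oneS) = true := by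
  decide +kernel

theorem def27 : Nat.beq (runM tab [27] oneS) (runM tab [25, 25, 25, 26, 26, 26, 26, 26, 26, 26, 26] oneS) = true := by
  decide +kernel

theorem def28 : Nat.beq (runM tab [28, 27] oneS) oneS = true := by decide +kernel

theorem def29 : Nat.beq (runM tab [29] oneS) (runM tab [17, 22, 18, 17, 22, 28, 16, 19, 18, 16, 19, 27, 17, 22, 18, 17, 22, 17, 23, 18, 17, 23, 28, 16, 23, 18, 16, 23, 27] oneS) = true := by
  decide +kernel

theorem def30 : Nat.beq (runM tab [30, 29] oneS) oneS = true := by decide +kernel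

theorem def31 : Nat.beq (runM tab [31] oneS) (runM tab [30, 20, 16, 24, 21, 21, 20, 29, 16, 17, 20, 19, 21, 18, 22, 17, 20, 0, 0, 0, 0, 30, 17, 18, 21, 21, 23, 22, 21, 19, 24, 17, 18, 0, 0, 0, 0, 29, 21, 16, 24, 22, 22, 21] oneS) = true := by
  decide +kernel

theorem def32 : Nat.beq (runM tab [32] oneS) (runM tab [17, 19, 18, 17, 19, 20, 22, 24, 23, 20, 22, 30, 20, 16, 24, 21, 21, 20, 29, 17, 18, 19, 17, 18, 20, 22, 24, 23, 20, 22, 0, 0, 0, 0, 16, 16, 17, 20, 18, 22, 19, 21, 17, 20] oneS) = true := by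
  decide +kernel

theorem def33 : Nat.beq (runM tab [33] oneS) (runM tab [30, 16, 16, 17, 18, 19, 21, 22, 20, 17, 18, 29] oneS) = true := by
  decide +kernel

end CfsgLib.LyThree33
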