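import Cfsg.Agent.LyExist36.Main
import Cfsg.Agent.Ly95.Elements
import Cfsg.Agent.LyThree33.Defs
import Cfsg.Agent.LyThree33.Chunk0
import Cfsg.Agent.LyThree33.Chunk1
import Cfsg.Agent.LyThree33.Chunk2

/-! A subgroup of the presented Lyons group with an orbit of length 3^7. -/

set_option autoImplicit false
set_option maxRecDepth 100000

namespace CfsgLib.LyThree33

open CfsgLib.LyRep96

theorem img_base (x : ℕ) (hx : x < 25) : IsImg (tab x) := by
  refine ⟨LyExist36.val x, ?_⟩
  rw [show tab x = LyExist36.tab x by interval_cases x <;> rfl]
  exact LyExist36.good_all x hx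

theorem img25 : IsImg (tab 25) :=
  isImg_word tab_shape def25 (by
    intro y hy
    exact img_base y (by fin_cases hy <;> omega))

theorem img26 : IsImg (tab 26) :=
  isImg_word tab_shape def26 (by
    intro y hy
    exact img_base y (by fin_cases hy <;> omega))

theorem img27 : IsImg (tab 27) :=
  isImg_word tab_shape def27 (by
    intro y hy
    rcases Nat.lt_or_ge y 25 with h | h
    · exact img_base y h
    · have : y = 25 ∨ y = 26 := by
        fin_cases hy <;> omega
      rcases this with rfl | rfl
      · exact img25
      · exact img26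
    )

theorem img28 : IsImg (tab 28) :=
  isImg_inv tab_shape def28 img27

theorem img29 : IsImg (tab 29) :=
  isImg_word tab_shape def29 (by
    intro y hy
    rcases Nat.lt_or_ge y 25 with h | h
    · exact img_base y h
    · have : y = 27 ∨ y = 28 := by
        fin_cases hy <;> omega
      rcases this with rfl | rfl
      · exact img27
      · exact img28
    )

theorem img30 : IsImg (tab 30) :=
  isImg_inv tab_shape def30 img29

theorem img31 : IsImg (tab 31) :=
  isImg_word tab_shape def31 (by
    intro y hy
    rcases Nat.lt_or_ge y 25 with h | h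
    · exact img_base y h
    · have : y = 29 ∨ y = 30 := by
        fin_cases hy <;> omega
      rcases this with rfl | rfl
      · exact img29
      · exact img30
    )

theorem img32 : IsImg (tab 32) :=
  isImg_word tab_shape def32 (by
    intro y hy
    rcases Nat.lt_or_ge y 25 with h | h
    · exact img_base y h
    · have : y = 29 ∨ y = 30 := by
        fin_cases hy <;> omega
      rcases this with rfl | rfl
      · exact img29
      · exact img30
    )

theorem img33 : IsImg (tab 33) :=
  isImg_word tab_shape def33 (by
    intro y hy
    rcases Nat.lt_or_ge y 25 with h | h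
    · exact img_base y h
    · have : y = 29 ∨ y = 30 := by
        fin_cases hy <;> omega
      rcases this with rfl | rfl
      · exact img29
      · exact img30
    )

theorem okAt_all (i : ℕ) (hi : i < 2187) : okAt i = true := by
  rcases Nat.lt_or_ge i 243 with h0 | h0
  · exact List.all_eq_true.mp chunk0 i (List.mem_range'_1.mpr (by omega))
  rcases Nat.lt_or_ge i 486 with h1 | h1
  · exact List.all_eq_true.mp chunk1 i (List.mem_range'_1.mpr (by omega))
  rcases Nat.lt_or_ge i 729 with h2 | h2
  · exact List.all_eq_true.mp chunk2 i (List.mem_range'_1.mpr (by omega))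
  rcases Nat.lt_or_ge i 972 with h3 | h3
  · exact List.all_eq_true.mp chunk3 i (List.mem_range'_1.mpr (by omega))
  rcases Nat.lt_or_ge i 1215 with h4 | h4
  · exact List.all_eq_true.mp chunk4 i (List.mem_range'_1.mpr (by omega))
  rcases Nat.lt_or_ge i 1458 with h5 | h5
  · exact List.all_eq_true.mp chunk5 i (List.mem_range'_1.mpr (by omega))
  rcases Nat.lt_or_ge i 1701 with h6 | h6
  · exact List.all_eq_true.mp chunk6 i (List.mem_range'_1.mpr (by omega))
  rcases Nat.lt_or_ge i 1944 with h7 | h7
  · exact List.all_eq_true.mp chunk7 i (List.mem_range'_1.mpr (by omega))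
  exact List.all_eq_true.mp chunk8 i (List.mem_range'_1.mpr (by omega))

theorem incr_nodup (l : List ℕ) (h : incr l = true) : l.Nodup := by
  have : ∀ l, incr l = true → List.IsChain (· < ·) l := by
    intro l
    induction l with
    | nil => intro _; exact List.IsChain.nil
    | cons x l ih =>
      cases l with
      | nil => intro _; exact List.IsChain.singleton x
      | cons y l =>
        intro h
        rw [incr, Bool.and_eq_true, Nat.blt_eq] at h
        exact List.IsChain.cons_cons h.1 (ih h.2)
  exact (List.isChain_iff_pairwise.mp (this l h)).imp fun h => Nat.ne_of_lt h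

/-- the full 3-part divides the order -/
theorem three_pow_seven_dvd : 3 ^ 7 ∣ Nat.card Cfsg.Spor.Ly := by
  have hs := sigma_ok
  simp only [Bool.and_eq_true, Nat.beq_eq, List.all_eq_true, Nat.blt_eq] at hs
  refine dvd_card_of_orbit tab tab_shape gens ?_ 2187 vecs.get (Pi.single ⟨0, by norm_num⟩ 1) ?_ nx
    ?_ ?_ sigma hs.1.1 hs.1.2 (incr_nodup _ hs.2) (by norm_num)
  · intro g hg
    simp only [gens, List.mem_cons, List.not_mem_nil, or_false] at hg
    rcases hg with rfl | rfl | rfl
    exacts [img31, img32, img33]
  · rw [vecs_zero, Ly95.packV_single]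
  · intro i hi j hj
    have h := okAt_all i hi
    simp only [okAt, Bool.and_eq_true, List.all_eq_true, Nat.beq_eq, Nat.blt_eq] at h
    exact h.1 j (List.mem_range.mpr hj)
  · intro i hi h0
    have h := okAt_all i hi
    simp only [okAt, Bool.and_eq_true, Bool.or_eq_true, Nat.beq_eq, Nat.blt_eq] at h
    rcases h.2 with h | ⟨⟨hp, hj⟩, he⟩
    · exact absurd h h0
    · exact ⟨_, _, hp, hj, he⟩

end CfsgLib.LyThree33
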