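import Mathlib.Tactic.Common

/-! Lists of numbers as trees, for lookups in the kernel. -/

set_option autoImplicit false

namespace CfsgLib.LyThree33

/-- a list as a tree -/
inductive Tree where
  | one (v : ℕ)
  | node (n : ℕ) (l r : Tree)

/-- lookup; `n` is the number of entries of the left part -/
def Tree.get : Tree → ℕ → ℕ
  | .one v, _ => v
  | .node n l r, i => if Nat.blt i n then l.get i else r.get (i - n)

end CfsgLib.LyThree33
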